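import Cfsg.Agent.H10.RF.C
import Cfsg.Prelude.Def_Classical
import Cfsg.Prelude.Def_JankoFourType

/-! Independent pieces of the recognition theorem for `2 ^ 10 . L₅(2)`. -/

set_option autoImplicit false
open Cfsg Subgroup H19 H0 H15 H10.RF Matrix
open scoped commutatorElement Pointwise
namespace H10.RG
universe u
local notation "cj" => H19.cj
abbrev V5 := Fin 5 → ZMod 2
abbrev S5 := SpecialLinearGroup (Fin 5) (ZMod 2)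
abbrev OM := Omega (ZMod 2) (quadFormPlus 5 (ZMod 2))
/-- the elementary matrix `1 + E i j` -/
def tv (i j : Fin 5) : S5 := if h : i = j then 1 else ⟨transvection i j 1, det_transvection_of_ne i j h 1⟩
/-- `A` is the exterior square of the natural module -/
structure WG {G : Type*} [Group G] (A : Subgroup G) (θ : N(A) →* S5) (β : V5 → V5 → G) : Prop where
  sur : Function.Surjective θ
  ker : ∀ g, θ g = 1 ↔ (g : G) ∈ A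
  add : ∀ u u' w, β (u + u') w = β u w * β u' w
  alt : ∀ u, β u u = 1
  sym : ∀ u w, β u w = β w u
  mem : ∀ u w, β u w ∈ A
  gen : A ≤ closure (Set.range fun p : V5 × V5 => β p.1 p.2)
  act : ∀ (g : N(A)) u w, (g : G) * β u w * (g : G)⁻¹ = β ((θ g).1 *ᵥ u) ((θ g).1 *ᵥ w)
/-- identification of the module -/
def F0 : Prop := ∀ {G : Type u} [Group G] [Finite G] (A : Subgroup G), (∀ a ∈ A, a * a = 1) → #A = 1024 →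
  Nonempty (Quo A ≃* S5) → (∀ W ≤ A, N(A) ≤ N(W) → W = ⊥ ∨ W = A) → ∃ θ β, WG A θ β
/-- the extension splits -/
def F1 : Prop := ∀ {G : Type u} [Group G] [Finite G] (A : Subgroup G) (θ : N(A) →* S5) (β : V5 → V5 → G),
  (∀ a ∈ A, a * a = 1) → #A = 1024 → WG A θ β → ∃ κ : S5 →* N(A), ∀ m, θ (κ m) = m
/-- a weakly closed trivial intersection subgroup of order sixteen in the automizer of `X` -/
structure TIS {G : Type*} [Group G] (X O Z : Subgroup G) : Prop where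
  sq : ∀ x ∈ X, x * x = 1
  cX : C(X) ≤ X
  ZX : Z ≤ X
  XO : X ≤ O
  ON : O ≤ N(X)
  sqO : ∀ a ∈ O, a * a ∈ X
  cO : #O = 16 * #X
  ZC : Z ≤ C(O)
  two : ∀ a ∈ O, ∀ b ∈ O, a ∉ X → b ∉ X → a * b ∉ X → X ⊓ C[a] ⊓ C[b] ≤ Z
  one : ∀ a ∈ O, a ∉ X → #(X ⊓ C[a] : Subgroup G) ≤ 2 * #Z
  hyp : ∀ m ∈ N(X) ⊓ N(O), #Z ≤ 2 * #(Z ⊓ C[m] : Subgroup G) → m ∈ O
  wc : ∀ g ∈ N(X), cj g O ≤ N(O) → cj g O = O
  cM : #(N(X) ⊓ N(O) : Subgroup G) = 20160 * #O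
  sim : ∀ K, O ≤ K → K ⊴ N(X) ⊓ N(O) → K = O ∨ K = N(X) ⊓ N(O)
  tr : ∀ a ∈ O, ∀ b ∈ O, a ∉ X → b ∉ X → ∃ m ∈ N(X) ⊓ N(O), m * a * m⁻¹ * b⁻¹ ∈ X
def F3 : Prop := ∀ {G : Type u} [Group G] [Finite G] (X O Z : Subgroup G), TIS X O Z →
  N(X) ≤ N(O) ∨ Nonempty (Quo X ≃* S5) ∨ Spor.IsoM24 (Quo X)
/-- the inequalities for sections of `S` acting on the extraspecial group `Q` -/
def TS {G : Type*} [Group G] (S Q : Subgroup G) (s : G) : Prop := ∀ E ≤ S, (∀ e ∈ E, e * e ∈ zpowers s) →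
  ∃ f, #E ≤ f * #(E ⊓ Q : Subgroup G) ∧ f ≤ 32 ∧ (E ≤ Q ∨ f * #(Q ⊓ cm (zpowers s) E : Subgroup G) < 8192 ∧
    (f * (f * #(Q ⊓ cm (zpowers s) E : Subgroup G)) < 8192 ∨ #(Q ⊓ cm (zpowers s) E : Subgroup G) ≤ 128 ∧
      ∃ e ∈ E, e ∉ Q ∧ ∀ a ∈ Q, ⁅a, e⁆ ∈ Q ⊓ cm (zpowers s) E))
/-- the setting in which `Q` is a large extraspecial subgroup -/
structure LS {G : Type*} [Group G] (S Q A Y : Subgroup G) (s x : G) : Prop where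
  es : ES Q s
  cQ : #Q = 8192
  sS : Syl 2 S C[s]
  QS : Q ≤ S
  SQ : S ≤ N(Q)
  ts : TS S Q s
  zq : ∀ t ∈ S, t ∈ cm Q S → ∃ q ∈ Q, q * t * (q * t) ∈ zpowers s
  cS : S ⊓ C(Q) ≤ Q
  sq : ∀ a ∈ A, a * a = 1
  AS : A ≤ S
  QA : Q ≤ N(A)
  sA : s ∈ A
  CQ : N(A) ⊓ C[s] ≤ N(Q)
  cW : N(A) ⊓ C(Q ⊓ A) ≤ A
  vQ : A ⊓ cm (zpowers s) Q ≤ Q
  YC : Y ≤ N(A) ⊓ C[s]
  xY : x ∈ Y
  x3 : x ^ 3 = 1
  Ysq : ∀ y ∈ Y, y * y ∈ zpowers x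
  k0 : N(A) ⊓ C[s] ⊓ cm (Q ⊓ A) A ≤ A ⊔ Q ⊔ Y
  rk : 4 * #(A ⊓ Q : Subgroup G) < #A
  ind : ∀ a ∈ A, ∀ b ∈ A, a ∉ Q → b ∉ Q → a * b ∉ Q → Q ⊓ cm (zpowers s) {a} ⊓ cm (zpowers s) {b} ≤ A
  fx : Q ⊓ cm (zpowers s) {x} ≤ zpowers s
def LG : Prop := ∀ {G : Type u} [Group G] [Finite G] (S Q A Y : Subgroup G) (s x : G), LS S Q A Y s x →
  Oc {2}ᶜ C[s] = ⊥ → LE Q s ∧ C(Q ⊓ A) ≤ A ∧ N(Q ⊓ A) ≤ N(A)
/-- the fifth node of the diagram `D₅` -/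
structure D5 {G : Type*} [Group G] (κ : S5 →* G) (b b' c c' : G) : Prop where
  cb : ∀ m ∈ [tv 0 1, tv 1 0, tv 1 2, tv 2 1, tv 3 4, tv 4 3], Commute (κ m) b ∧ Commute (κ m) b'
  sq : b * b = 1 ∧ b' * b' = 1 ∧ c * c = 1 ∧ c' * c' = 1
  r1 : ⁅κ (tv 2 3), b⁆ = c ∧ Commute (κ (tv 2 3)) c ∧ Commute b c
  r2 : ⁅b', κ (tv 3 2)⁆ = c' ∧ Commute (κ (tv 3 2)) c' ∧ Commute b' c'
  r3 : Commute (κ (tv 2 3)) b' ∧ Commute (κ (tv 3 2)) b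
  r4 : ⁅κ (tv 3 2), c⁆ = b ∧ ⁅c, b'⁆ = κ (tv 2 3) ∧ ⁅b, c'⁆ = κ (tv 3 2) ∧ ⁅c', κ (tv 2 3)⁆ = b'
def CT : Prop := ∀ {G : Type u} [Group G] [Finite G] (κ : S5 →* G) (b b' c c' : G) (J : Subgroup G), D5 κ b b' c c' →
  J = κ.range ⊔ zpowers b ⊔ zpowers b' → b ≠ 1 → J ⊓ C(J) = ⊥ → Nonempty (J ≃* OM)
/-- the application of the theorem of Holt -/
def HO : Prop := ∀ {G : Type u} [Group G] [Finite G] [IsSimpleGroup G] (S J : Subgroup G) (r : Fin 4 → G), Syl 2 S ⊤ →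
  S ≤ C[r 0] → C[r 0] ≤ J → Nonempty (J ≃* OM) → (∀ i, r i ∈ J ∧ r i * r i = 1 ∧ r i ≠ 1) →
  (∀ i j, IsConj (r i) (r j) → i = j) → J = ⊤
/-- the full orthogonal group -/
def OT : Prop := ∀ {G : Type u} [Group G] [Finite G] (J : Subgroup G), J.index = 2 → C(J) = ⊥ → Nonempty (J ≃* OM) →
  Nonempty (G ≃* isometryGroup (ZMod 2) (quadFormPlus 5 (ZMod 2)))
end H10.RG
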