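import Cfsg.Agent.H10.RG.N2
import Cfsg.Agent.H8.RG4
import Cfsg.Agent.S2901

/-! The case in which the normalizers of the other two elementary subgroups are small. -/

set_option autoImplicit false
set_option linter.unusedSectionVars false
set_option linter.unusedVariables false
set_option maxRecDepth 100000
set_option synthInstance.maxSize 4000
open Cfsg Subgroup H19 H0 H15 H10.RF Matrix
open scoped commutatorElement Pointwise
namespace H10.RG
local notation "cj" => H19.cj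
universe u
variable {G : Type u} [Group G] [Finite G] {A B D H S X : Subgroup G} {ρ : G → ℕ} {v K : ℕ → G} {a b c f g i : ℕ} {x y : G}
theorem fusG (s : Syl 2 S H) (l : X ≤ S) (wc : ∀ g ∈ H, cj g X ≤ S → cj g X = X) (hg : x ∈ H) (h1 : X ≤ D) (h2 : cj x⁻¹ X ≤ D) :
    ∃ c ∈ H ⊓ D, c * x⁻¹ ∈ N(X) := by
  have p := s.pi.of_le l
  have XH := l.trans s.le
  obtain ⟨R, sR, lR⟩ := p.exists_syl (le_inf XH h1)
  obtain ⟨c, hc, e⟩ := sR.scj_le (le_inf (cj_le_of_mem (inv_mem hg) XH) h2) (p.J _)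
  obtain ⟨d, hd, f⟩ := s.scj_le (sR.le.trans inf_le_left) sR.pi
  rw [cj_cj] at e
  exact ⟨c, hc, mem_norm_iff_cj.2 (cj_inj.1 ((cj_cj d _ X ▸ wc _ (mul_mem hd (mul_mem (mem_inf.1 hc).1 (inv_mem hg)))
    (cj_cj d _ X ▸ (cj_mono d e).trans f)).trans (wc d hd ((cj_mono d lR).trans f)).symm))⟩
theorem sylE (e : S = X) (s : Syl 2 S H) : Syl 2 X H := e ▸ s
open H17.GS in
theorem gsQ (sc : SCl A H) (n : B ⊴ H) (s : ∀ a ∈ A, a * a ∈ B) (h0 : Oc {2}ᶜ (quo B H) = ⊥) :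
    ∃ D, A ≤ D ∧ D ⊴ H ∧ (∀ t ∈ D, t ∈ N(A) → t * t ∈ B → t ∈ B ⊔ A) ∧
      (Syl 2 A (D ⊓ N(B ⊔ A)) → ⁅D ⊓ N(B ⊔ A), A⁆ ≤ B → H ≤ N(B ⊔ A)) := by
  have AZ := sc.le.trans n.norm
  obtain ⟨D, l, k, k1, k2⟩ := gs (sc.quo n) (ab_sq fun q hq => by
    obtain ⟨q, hw, rfl⟩ := H19.mem_im.1 hq
    exact qsq (s _ hw)) h0
  have e : D ⊓ N(quo B A) = quo B (qpre B D ⊓ N(B ⊔ A)) := le_antisymm (by
    rw [← quo_qpre (D ⊓ _)]
    exact quo_mono _ (le_inf (qpre_mono inf_le_left) (norms_of_quo (qpre_le_norm _) AZ (by rw [quo_qpre]; exact inf_le_right))))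
    (le_inf ((quo_mono _ inf_le_left).trans (quo_qpre _).le) ((quo_mono _ inf_le_right).trans (quo_sup_left AZ ▸ im_norm_le)))
  have l2 : qpre B D ⊓ N(B ⊔ A) ≤ N(B) := inf_le_left.trans (qpre_le_norm _)
  refine ⟨qpre B D, (quo_le_iff AZ).1 l, qpre_normal n k, fun t ht nt tt => ?_, fun h3 h4 => norms_of_quo n.norm AZ
    (k2 (e ▸ h3.quo l2) (e ▸ (quo_cents_iff l2 AZ).2 h4))⟩
  obtain ⟨m, ht⟩ := H19.mem_pre.1 ht
  exact (qmk_mem_quo AZ (x := ⟨t, m⟩)).1 (k1 _ ht (qnm nt) (qsq tt))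
abbrev sB (v K : ℕ → G) := PS v K 1023 mF
local notation "WW" => sW v K
local notation "QQ" => sQ v K
local notation "TT" => sT v K
local notation "YY" => sY v K
local notation "BB" => sB v K
local notation "JJ" => PS v K 1023 mJ
local notation "HH" => C[v 1]
theorem gd2 : gd 1023 mF ∧ gd 1023 mJ ∧ gd 255 0 ∧ gd 149 0x200400800000 ∧ lm mF 1023 223 := by decide +kernel
theorem tr7 : ∀ a < 1024, sb a 223 ∨ ∃ g ∈ [I5, 281681151922177, 281681185476609, 422349920800769, 281715528437761, 422349954355201,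
    492718681755649], sb (a ^^^ Lv g 32) 223 ∧ ok g = true ∧ inP mY g := by decide +kernel
namespace IK
variable (h : IK A ρ v K)
include h
theorem cjr (hx : x ∈ N(A)) (o : ok g = true) (p : ok f = true) (e : mm g (ρ x) = mm f g) : ρ (K g * x * (K g)⁻¹) = f := by
  have := (h.eqv _ (mul_mem (h.kn g) hx) _ (mul_mem (h.kn f) (h.kn g))).1 (by
    rw [h.mul _ (h.kn g) _ hx, h.mul _ (h.kn f) _ (h.kn g), h.kr g o, h.kr f p, e])
  rw [← h.kr f p, h.eqv _ (mul_mem (mul_mem (h.kn g) hx) (inv_mem (h.kn g))) _ (h.kn f)]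
  rwa [_root_.mul_inv_rev, ← mul_assoc] at this
theorem rsq (hx : x ∈ N(A)) (e : x * x = 1) : mm (ρ x) (ρ x) = I5 := by rw [← h.mul _ hx _ hx, e, h.one]
theorem QB : QQ ≤ BB := PS_le (by decide) fun _ _ => sb_rfl _
theorem BT : BB ≤ TT := PS_le (by decide) (by decide +kernel)
theorem JT' : JJ ≤ TT := PS_le (by decide) (by decide +kernel)
theorem YB : YY ≤ N(BB) := h.nrm (by decide +kernel)
theorem YH : YY ≤ HH := h.Ye.ge.trans inf_le_right
theorem exB' (hx : x ∈ BB) : ∃ a < 1024, ∃ q ∈ QQ, x = v a * q :=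
  let ⟨a, g, ha, o, p, e⟩ := (h.mem_PS gd2.1).1 hx; ⟨a, (sb_lt 10).1 ha, _, h.KP o p, e⟩
theorem sqB (hx : x ∈ BB) : x * x ∈ QQ := by
  obtain ⟨a, g, ha, o, p, rfl⟩ := (h.mem_PS gd2.1).1 hx
  rw [h.elm o o, Nat.xor_comm]
  exact el_PS (gd2.2.2.2.2.sb o p ha) (ok_mm o o) (p.mm gd2.1.2 p o)
theorem c32 : 512 ≤ #(QQ ⊓ cm (zpowers (v 1)) {v 32} : Subgroup G) := by
  have l : PS v K 223 0x300000000000 ≤ QQ := PS_le (by decide) (by decide +kernel)
  refine le_trans (Eq.ge ((h.cPS (m := 223) (μ := 0x300000000000) (by decide +kernel)).trans (by decide +kernel))) (card_le (le_inf l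
    fun x hx => cent_cm (HZ (h.TC (h.QT (l hx)))) (cent_le_cent1 (h.vP (sb_rfl 32)) (h.cent (μ := 0x300000000000) (by decide +kernel)
      (PS_le (by decide) (fun _ _ => sb_rfl _) hx)))))
theorem c128 (ha : a < 1024) (hi : i < 512) : #(QQ ⊓ cm (zpowers (v 1)) {v a * K (ug i) * K (ee 0 1)} : Subgroup G) ≤ 128 := by
  have n : PS v K 1023 0xf00e00c00000 ≤ N(PS v K 149 0x200400800000) := h.nrm (by decide +kernel)
  have o : ok (ee 0 1) = true := by decide +kernel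
  have := infbd (A := QQ) (X := PS v K 149 0x200400800000) (PS_le (by decide) (by decide +kernel)) (inf_le_left (b := cm (zpowers (v 1))
    {v a * K (ug i) * K (ee 0 1)})) (inf_le_left.trans ((PS_le (by decide) (by decide +kernel)).trans n))
  have l : PS v K 149 0x200400800000 ⊓ (QQ ⊓ cm (zpowers (v 1)) {v a * K (ug i) * K (ee 0 1)}) ≤ zpowers (v 1) := fun q hq => by
    have t := mul_mem (zpowers_le.2 (h.vP (by decide)) (cms (mem_cm1.1 hq.2.2).2)) hq.1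
    rw [← cjcm, ← cjcj] at t
    have t := conj_mem_of_norm' (n (el_PS ((sb_lt 10).2 ha) (ugk i (by omega)).1
      ((by decide +kernel : ∀ i < 512, inP 0xf00e00c00000 (ug i)) i hi))) t
    obtain ⟨b, g, hb, p, r, rfl⟩ := (h.mem_PS gd2.2.2.2.1).1 hq.1
    obtain ⟨j, hj, rfl⟩ := ex_ug p (r.mono (by decide +kernel))
    rw [show _ * _ * (v a * K (ug i)) = K (ee 0 1) * (v b * K (ug j)) * (K (ee 0 1))⁻¹ by group, inv_eq_of_mul_eq_one_right
      (h.Ksq o (by decide +kernel)), ← mul_assoc, h.Kv o, mul_assoc (v _), ← h.km _ _ o p, mul_assoc, ← h.km _ _ (ok_mm o p) o,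
      h.el_mem gd2.2.2.2.1 (Lv_lt _ _) (ok_mm (ok_mm o p) o)] at t
    rw [(by decide +kernel : ∀ j < 1024, inP 0x200400800000 (ug j) → inP 0x200400800000 (mm (mm (ee 0 1) (ug j)) (ee 0 1)) → ug j = I5)
      j hj r t.2, h.K1, mul_one]
    rcases (by decide +kernel : ∀ b < 150, sb b 149 → sb (Lv (ee 0 1) b) 149 → b = 0 ∨ b = 1) b (Nat.lt_succ_of_le hb.le) hb t.1 with rfl | rfl
    exacts [h.v0 ▸ one_mem _, mem_zpowers _]
  have := card_le l
  rw [c2 (h.vv 1) h.s1] at this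
  have c : #(PS v K 149 0x200400800000) = 128 := (h.cPS (by decide +kernel)).trans (by decide +kernel)
  have := h.cQ
  nlinarith
end IK
namespace C1
variable (h : C1 A ρ v K) (n0 : N(X0 v K) ≤ N(A)) (n1 : N(X1 v K) ≤ N(A))
include h n0 n1
theorem k3 (hx : x ∈ HH) (t : x * v 32 * x⁻¹ ∈ JJ) : x * v 32 * x⁻¹ ∈ BB := by
  have tt : x * v 32 * x⁻¹ * (x * v 32 * x⁻¹) = 1 := by rw [← cjmul, h.vv, mul_one, mul_inv_cancel]
  obtain ⟨a, g, ha, o, p, e⟩ := (h.mem_PS gd2.2.1).1 t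
  obtain ⟨i, hi, rfl⟩ := ex_ug o (p.mono (by decide +kernel))
  have ha := (sb_lt 10).1 ha
  obtain ⟨j, hj, f, of, pf, r⟩ : ∃ j < 4, ∃ f, ok f = true ∧ inP mF f ∧ ug i = mm (ug (4 * j)) f :=
    let k := (by decide +kernel : ∀ i < 1024, inP mJ (ug i) → force (ug (i &&& 1011)) (fun f => ok f && decide (inP mF f) &&
      ug i == mm (ug (4 * (i / 4 % 4))) f) = true) i hi p
    ⟨_, Nat.mod_lt _ (by decide), _, by simpa only [force_eq, Bool.and_eq_true, decide_eq_true_eq, beq_iff_eq, and_assoc] using k⟩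
  have q := h.KP (m := 223) of pf
  have TQ := h.TY.trans h.YQ
  have j4 : 4 * j < 16 := by omega
  rw [r, h.km _ _ (ugk _ (by omega)).1 of, ← mul_assoc] at e
  have s : v a * K (ug (4 * j)) * (v a * K (ug (4 * j))) ∈ QQ := by
    rw [← mul_inv_eq_iff_eq_mul.2 e, show ∀ t k : G, t * k * (t * k) = t * k * t⁻¹ * (t * t) * k from fun _ _ => by group, tt, mul_one]
    exact mul_mem (conj_mem_of_norm (TQ (h.JT' t)) (inv_mem q)) (inv_mem q)
  rw [h.mulR j4 j4, Nat.xor_self, h.el_mem gdk.1.2.2.2 (x10 ha (Lv_lt _ _)) (ugk 0 (by decide)).1] at s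
  have key : ∀ X, (X = X0 v K ∨ X = X1 v K) → v (a &&& 831) * K (ug (4 * j)) ∈ X → x * v 32 * x⁻¹ ∈ BB := fun X hX m => by
    have XT : X ≤ TT := (hX.elim (· ▸ h.X0R) (· ▸ h.X1R)).trans h.RT
    have ZX : sZ v K ≤ X := hX.elim (· ▸ h.ZX0) (· ▸ h.ZX1)
    have nX : N(X) ≤ N(A) := hX.elim (· ▸ n0) (· ▸ n1)
    have ab : X ≤ C(X) := ab_sq (hX.elim (· ▸ h.sq0) (· ▸ h.sq1))
    have c : ∀ y ∈ X, X ≤ cm QQ {y} := fun y hy z hz => cent_cm (TQ (XT hz)) (cent_le_cent1 hy (ab hz))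
    have c' : ∀ y ∈ QQ, X ≤ cm QQ {y} := fun y hy z hz => mem_cm1.2 ⟨TQ (XT hz), cmN (TQ (XT hz)) hy⟩
    have w : v (a &&& 192) ∈ QQ := h.vP ((by decide +kernel : ∀ a < 1024, sb (a &&& 192) 223) a ha)
    obtain ⟨c, hc, n⟩ := fusG (D := cm QQ {v 32}) (h.syl.of_le h.TC le_top) XT (fun g _ => h.wc X (.inr hX) g) hx
      (c _ (ZX (h.vP (by decide)))) fun y hy => by
        obtain ⟨z, hz, rfl⟩ := mem_cj'.1 hy
        have := cm_cj1 (h.le.norm (inv_mem hx)) (cm_mul1 (mul_mem (le_normalizer w) (TQ (XT m)))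
          (cm_mul1 (le_normalizer w) (c' _ w hz) (c _ m hz)) (c' _ q hz))
        rwa [← mul_assoc (v _), ← h.vx, (by decide +kernel : ∀ a < 1024, a &&& 192 ^^^ a &&& 831 = a) a ha, ← e, cjcj, inv_mul_cancel,
          one_mul, inv_one, mul_one] at this
    have := conj_mem_of_norm' (h.YB (h.Ye.le ⟨nX n, mul_mem (mem_inf.1 hc).1 ((HH).inv_mem hx)⟩))
      (cjcm c _ ▸ mul_mem (h.QB (mem_cm1.1 hc.2).2) (h.AP (h.vm 32)))
    rwa [show _ * _ * (c * x⁻¹) = x * v 32 * x⁻¹ by group] at this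
  have l : a &&& 831 < 1024 := Nat.and_le_right.trans_lt (by decide)
  have k := (by decide +kernel : ∀ j < 4, force (L2 (ug (4 * j))) (fun M => decide (∀ a < 1024, sb (a ^^^ mv M a) 223 →
    j = 0 ∨ (a &&& 831) / 64 = 0 ∨ (a &&& 831) / 64 = 4 * j)) = true) j hj
  rw [force_eq, decide_eq_true_eq] at k
  rcases k a ha s.1 with rfl | k | k
  · rw [e, show K (ug (4 * 0)) = 1 from h.K1, mul_one]
    exact mul_mem (h.AP (h.vm a)) (h.QB q)
  exacts [key _ (.inl rfl) ((h.mX0 l j4).2 k), key _ (.inr rfl) ((h.mX1 l j4).2 k)]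
theorem k2 (hx : x ∈ HH) (t : x * v 32 * x⁻¹ ∈ TT) : x * v 32 * x⁻¹ ∈ BB := by
  obtain ⟨a, ha, i, hi, e⟩ := h.exT t
  have o := (ugk i hi).1
  by_cases i5 : i < 512
  · have s := h.rsq (h.PN t) (by rw [← cjmul, h.vv, mul_one, mul_inv_cancel])
    rw [e, h.rel o] at s
    obtain ⟨p, -, k⟩ := (by decide +kernel : ∀ i < 512, mm (ug i) (ug i) = I5 → ∃ p ∈ [(I5, I5), (140874944090113, 140874944090113),
      (422349920800769, 140943663566849)], force (mm (mm p.1 (ug i)) p.2) (fun f => decide (inP mJ f) && mm p.1 (ug i) == mm f p.1 &&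
        ok f && ok p.1 && decide (inP mY p.1)) = true) i i5 s
    simp only [force_eq, Bool.and_eq_true, decide_eq_true_eq, beq_iff_eq] at k
    have y := h.KP (m := 1023) k.1.2 k.2
    have := h.k3 n0 n1 (mul_mem (h.YH y) hx) (cjcj _ x _ ▸ h.memP (mul_mem (mul_mem (h.kn _) (h.PN t)) (inv_mem (h.kn _)))
      (by rw [h.cjr (h.PN t) k.1.2 k.1.1.2 (by rw [e, h.rel o]; exact k.1.1.1.2)]; exact k.1.1.1.1))
    rw [← cjcj] at this
    simpa [mul_assoc] using conj_mem_of_norm' (h.YB y) this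
  · have := h.c128 ha (show i - 512 < 512 by omega)
    rw [mul_assoc, ← h.km _ _ (ugk _ (by omega)).1 (by decide +kernel), (by decide +kernel : ∀ i < 512, mm (ug i) (ee 0 1) = ug (i + 512)) _
      (by omega), Nat.sub_add_cancel (by omega), ← e, ← cj_of_mem_norm (h.le.norm hx), ← cj_of_mem_norm (HZ hx), ← cj_cm1, ← cj_inf,
      card_cj] at this
    have := h.c32
    omega
theorem scl : H17.GS.SCl BB HH := by
  have k : ∀ x ∈ HH, ∀ y ∈ BB, x * y * x⁻¹ ∈ TT → x * y * x⁻¹ ∈ BB := fun x hx y hy t => by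
    obtain ⟨a, ha, q, hq, rfl⟩ := h.exB' hy
    have c := fun {y} (k : y ∈ QQ) => conj_mem_of_norm (h.le.norm hx) k
    rw [cjmul] at t ⊢
    refine mul_mem ?_ (h.QB (c hq))
    have t := (mul_mem_cancel_right (h.QT (c hq))).1 t
    rcases tr7 a ha with k | ⟨g, -, k, o, p⟩
    · exact h.QB (c (h.vP k))
    rw [← Nat.xor_xor_cancel_right a (Lv g 32), h.vx, cjmul, ← h.Kcj o, cjcj] at t ⊢
    exact mul_mem (h.QB (c (h.vP k))) (h.k2 n0 n1 (mul_mem hx (h.YH (h.KP o p))) ((mul_mem_cancel_left (h.QT (c (h.vP k)))).1 t))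
  refine ⟨h.BT.trans h.TC, h.pT.of_le h.BT, fun P p l y hy x hx t => ?_⟩
  obtain ⟨d, hd, e⟩ := (h.syl.of_le h.TC le_top).scj_le (h.le.le_cent p (h.QB.trans l)) p
  have := k _ (mul_mem hd hx) y hy (cjcj d x y ▸ e (conj_mem_cj.2 t))
  rw [← cjcj] at this
  simpa [mul_assoc] using conj_mem_of_norm' (h.YB (h.Ye.le ⟨mem_norm_iff_cj.2 (h.wc A (.inl rfl) d ((cj_mono d (h.AP.trans l)).trans e)), hd⟩)) this
theorem HN (tq : TQ.{u}) : HH ≤ N(A) := by
  have sT := h.syl.of_le h.TC le_top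
  have TQ := h.TY.trans h.YQ
  obtain ⟨es, ts, -, -, Y, x, ls⟩ := tq h.toIK
  have ls := ls _ sT le_rfl TQ ts inf_le_left inf_le_left
  have nQ : QQ ⊴ HH := ⟨es.le_cent, h.le.norm⟩
  have h0 := oddq nQ
  have nB := qpre_normal nQ (Oc_normal {2}ᶜ (quo QQ HH))
  have sB : Syl 2 QQ (qpre QQ (Oc {2}ᶜ (quo QQ HH))) := ⟨le_qpre _, es.pg, (piG_quo_iff (qpre_le_norm _)).1 (by rw [quo_qpre]; exact Oc_pi _ _)⟩
  generalize qpre QQ (Oc {2}ᶜ (quo QQ HH)) = B at h0 nB sB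
  have BY : B ≤ YY := h.Ye ▸ le_inf ((le_inf le_rfl (nB.le.trans nQ.norm)).trans ((H8.RG.L.kW ls sB nB).trans (h.QA ▸ h.nw))) nB.le
  have TB : TT ⊓ (B ⊔ BB) ≤ BB := fun t ht => by
    obtain ⟨b, hb, r, hr, rfl⟩ := (mem_sup_of_norm ((h.BT.trans h.TC).trans nB.norm)).1 ht.2
    exact mul_mem (h.QB ((sB.max (le_inf h.QT sB.le) inf_le_right (h.pT.infl _)).le ⟨(mul_mem_cancel_right (h.BT hr)).1 ht.1, hb⟩)) hr
  have TN : TT ≤ N(B ⊔ BB) := norms_sup (h.TC.trans nB.norm) (h.TY.trans h.YB)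
  have NA : N(B ⊔ BB) ≤ N(A) := fun e he => mem_norm_iff_cj.2 (h.wc A (.inl rfl) e (le_trans (Hall.le_of_normal
    (sylE (le_antisymm TB (le_inf h.BT le_sup_right)) (h.syl.inf_of_norm le_top TN)) (sup_le (BY.trans h.YB) le_normalizer)
    (cj_le_of_mem_norm he (h.AP.trans le_sup_right)) (h.pA.J e)) h.BT))
  obtain ⟨D, l, n, k1, k2⟩ := gsQ (h.scl n0 n1) nB (fun a ha => sB.le (h.sqB ha)) h0
  have EY : D ⊓ N(B ⊔ BB) ≤ YY := h.Ye ▸ le_inf (inf_le_right.trans NA) (inf_le_left.trans n.le)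
  have YE : YY ≤ N(D ⊓ N(B ⊔ BB)) := norms_inf (h.YH.trans n.norm) (norms_norm (norms_sup (h.YH.trans nB.norm) h.YB))
  have BE : BB ≤ D ⊓ N(B ⊔ BB) := le_inf l (h.BT.trans TN)
  have k : ∀ g, ok g = true → inP mU g → K g ∈ D → inP mF (mm g g) → inP mF g := fun g o p m q => (h.K_mem gd2.1 o).1
    (TB ⟨h.KP o p, k1 _ m (h.YB (h.TY (h.KP o p))) (sB.le (h.km g g o o ▸ h.KP (ok_mm o o) q))⟩)
  have sE : Syl 2 BB (D ⊓ N(B ⊔ BB)) := sylE (le_antisymm (show TT ⊓ (D ⊓ N(B ⊔ BB)) ≤ BB from fun t ht => by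
    obtain ⟨a, ha, i, hi, rfl⟩ := h.exT ht.1
    have ⟨o, p, _⟩ := ugk i hi
    have m := (mul_mem_cancel_left (l (h.AP (h.vm a)))).1 ht.2.1
    exact el_PS ((sb_lt 10).2 ha) o (k _ o p m (k _ (ok_mm o o) (p.mm gdk.2.2.1.2 p o) (h.km _ _ o o ▸ mul_mem m m)
      ((by decide +kernel : ∀ i < 1024, force (mm (ug i) (ug i)) (fun g => decide (inP mF (mm g g))) = true) i hi |> fun t => by
        simpa only [force_eq, decide_eq_true_eq] using t)))) (le_inf h.BT BE)) (h.syl.inf_of_norm le_top (h.TY.trans YE))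
  generalize D ⊓ N(B ⊔ BB) = E at EY YE BE sE k2
  have JN := h.JT'.trans (h.TY.trans h.YB)
  have sJ : ∀ a ∈ quo BB JJ, a * a = 1 := fun a ha => by
    obtain ⟨⟨a, _⟩, hw, rfl⟩ := H19.mem_im.1 ha
    obtain ⟨b, g, hb, o, p, rfl⟩ := (h.mem_PS gd2.2.1).1 hw
    obtain ⟨i, hi, rfl⟩ := ex_ug o (p.mono (by decide +kernel))
    refine qsq (h.memP (mul_mem (h.elN _ _) (h.elN _ _)) ?_)
    rw [h.elm o o, h.rel (ok_mm o o)]
    exact (by decide +kernel : ∀ i < 1024, inP mJ (ug i) → inP mF (mm (ug i) (ug i))) i hi p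
  have E1 : E ≤ cm WW {v 32} := le_trans (le_of_quo_le (L := YY ⊓ cm WW {v 32}) (EY.trans h.YB) (fun r hr => ⟨h.TY (h.BT hr), mem_cm1.2
      ⟨h.YW (h.TY (h.BT hr)), by rw [h.cmv (h.PN hr)]; exact h.vP (gd2.2.2.2.2.sb (h.okr _ (h.PN hr)) (h.rP gd2.1 hr) (by decide))⟩⟩)
    (le_of_cent1_le (comm_iff_le_cent.2 (ab_sq sJ)) (ncyc sJ (by
      have := cq (PS_le (sb_rfl _) (by decide +kernel)) JN
      rw [show #JJ = 65536 * 4 from (h.cPS (by decide +kernel)).trans (by decide +kernel),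
        show #BB = 65536 from (h.cPS (by decide +kernel)).trans (by decide +kernel)] at this
      exact Nat.eq_of_mul_eq_mul_left (by decide) this ▸ (by decide : 2 < 4))) (quo_norms (h.JT'.trans (h.TY.trans YE))) (((piG_quo_iff (EY.trans h.YB)).2 sE.idx).coprime' ((h.pT.of_le h.JT').quo _))
      fun y hy' y1 d hd => by
        obtain ⟨⟨y, yn⟩, hy, rfl⟩ := H19.mem_im.1 hy'
        obtain ⟨d, hd', rfl⟩ := H19.mem_im.1 hd.1
        have dN := h.PN (EY hd')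
        have m : d * y * (d : G)⁻¹ ∈ JJ := cjcm (d : G) y ▸ mul_mem (PS_le (sb_rfl _) (by decide +kernel) (mem_cm1.1 (qcm.1 hd.2)).2) hy
        obtain ⟨a, g, ha, o, p, rfl⟩ := (h.mem_PS gd2.2.1).1 hy
        obtain ⟨i, hi, rfl⟩ := ex_ug o (p.mono (by decide +kernel))
        obtain ⟨b, -, hb⟩ := ((by decide +kernel : ∀ i < 1024, inP mJ (ug i) → inP mF (ug i) ∨
          ∃ b ∈ [256, 512], sb (32 ^^^ (Lv (ug i) b ^^^ b)) 223) i hi p).resolve_left fun q => y1 (qmk_eq_one.2 (el_PS ha o q))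
        obtain ⟨c, hc, e⟩ := h.vs _ (conj_mem_of_norm dN (h.vm b))
        have w := conj_mem_of_norm (h.YW (EY hd')) (h.vP hb)
        have z : d * v (Lv (ug i) b ^^^ b) * (d : G)⁻¹ ∈ PS v K 255 0 := by
          rw [← h.rel o a, ← h.cmv (h.elN _ _), cmc, ← e, h.cmv (h.PN m)]
          exact h.vP (lm.sb (by decide +kernel) (h.okr _ (h.PN m)) (h.rP gd2.2.1 m) ((sb_lt 10).2 hc))
        have z := mul_mem (PS_le (n := 255) (by decide) (fun _ _ => sb_rfl _) w) z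
        rw [← cjmul, ← h.vx, Nat.xor_xor_cancel_right, h.cjv dN, h.v_mem gd2.2.2.1 (Lv_lt _ _)] at z
        refine mem_im_of ⟨EY hd', mem_cm1.2 ⟨h.YW (EY hd'), ?_⟩⟩
        rw [h.cmv dN]
        refine h.vP (((by decide : ∀ c < 256, sb c 223 ∨ sb (c ^^^ 32) 223) _ ((sb_lt 8).1 z)).resolve_left fun q => ?_)
        have := conj_mem_of_norm' (h.YW (EY hd')) (h.cjv dN 32 ▸ h.vP q)
        simp only [mul_assoc, inv_mul_cancel, mul_one, inv_mul_cancel_left, h.v_mem gdk.1.2.1 (show 32 < 1024 by decide)] at this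
        exact absurd this (by decide))) inf_le_right
  refine (k2 sE ((comm_le_cm fun d hd => mem_cm.2 ⟨h.YQ (EY hd), fun r hr => ?_⟩).trans sB.le)).trans NA
  obtain ⟨a, ha, q, hq, rfl⟩ := h.exB' hr
  have c := fun {y} (k : y ∈ QQ) => cmN (h.YQ (EY hd)) k
  rw [cmr]
  refine mul_mem ?_ (conj_mem_of_norm (TQ (h.AP (h.vm a))) (c hq))
  rcases tr7 a ha with k | ⟨g, -, k, o, p⟩
  · exact c (h.vP k)
  have y := h.KP (m := 1023) o p
  have := cm_cj1 (h.YW y) (E1 (conj_mem_of_norm' (YE y) hd))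
  rw [h.Kcj o, show _ * _ * (K g)⁻¹ = d by group] at this
  rw [← Nat.xor_xor_cancel_right a (Lv g 32), h.vx, cmr]
  exact mul_mem (c (h.vP k)) (conj_mem_of_norm (le_normalizer (h.vP k)) (h.WQ (mem_cm1.1 this).2))
theorem dsc : ∀ i < 1024, (sb i 145 ∨ ∀ x, x * v 1 * x⁻¹ ∈ N(A) → ρ (x * v 1 * x⁻¹) = ug 18 → x * v 1 * x⁻¹ ∈ A) →
    ∀ x, x * v 1 * x⁻¹ ∈ N(A) → ρ (x * v 1 * x⁻¹) = ug i → x * v 1 * x⁻¹ ∈ A := fun i => by
  induction i using Nat.strong_induction_on with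
  | _ i ih =>
  intro hi c x m e
  have tt : x * v 1 * x⁻¹ * (x * v 1 * x⁻¹) = 1 := by rw [← cjmul, h.vv, mul_one, mul_inv_cancel]
  have s := h.rsq m tt
  rw [e] at s
  rcases (by decide +kernel : ∀ i < 1024, mm (ug i) (ug i) = I5 → i < 16 ∨ i = 18 ∨ ∃ g ∈ [422281201324033, 140874944090113, 281509370007553,
    281578072707073, 281543704584193, 281543712970753, 281543712966658, 281543721357313], force (ui (mm (mm g (ug i)) g)) (fun j =>
      Nat.blt j i && mm g (ug i) == mm (ug j) g && ok g && decide (sb i 145 → sb j 145)) = true) i hi s with k | rfl | ⟨g, -, k⟩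
  · have r := h.memP m (e ▸ (x1k i k).2.2.1)
    have f : ∀ X, (X = X0 v K ∨ X = X1 v K) → x * v 1 * x⁻¹ ∈ X → x * v 1 * x⁻¹ ∈ A := fun X hX t => by
      have ZX : sZ v K ≤ X := hX.elim (· ▸ h.ZX0) (· ▸ h.ZX1)
      have nX : N(X) ≤ N(A) := hX.elim (· ▸ n0) (· ▸ n1)
      obtain ⟨n, hn, q⟩ := fus1 h.syl ((hX.elim (· ▸ h.X0R) (· ▸ h.X1R)).trans h.RT) (ab_sq (hX.elim (· ▸ h.sq0) (· ▸ h.sq1)))
        (fun g _ => h.wc X (.inr hX) g) (mem_top x) (ZX (h.vP (by decide))) t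
      exact q ▸ conj_mem_of_norm (nX hn.2) (h.vm 1)
    exact ((h.invR r).1 tt).elim id fun q => q.elim (f _ (.inl rfl)) (f _ (.inr rfl))
  · exact c.resolve_left (by decide) x m e
  · simp only [force_eq, Bool.and_eq_true, decide_eq_true_eq, beq_iff_eq, Nat.blt_eq] at k
    have := ih _ k.1.1.1 (k.1.1.1.trans hi) (c.imp_left k.2) (K g * x) (cjcj _ x _ ▸ mul_mem (mul_mem (h.kn g) m) (inv_mem (h.kn g)))
      (cjcj _ x _ ▸ h.cjr m k.1.2 (ugk _ (k.1.1.1.trans hi)).1 (by rw [e]; exact k.1.1.2))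
    rw [← cjcj] at this
    simpa [mul_assoc] using conj_mem_of_norm' (h.kn g) this
theorem q18 (tq : TQ.{u}) (m : x * v 1 * x⁻¹ ∈ N(A)) (e : ρ (x * v 1 * x⁻¹) = ug 18) : x * v 1 * x⁻¹ ∈ A := by
  have HA := h.HN n0 n1 tq
  obtain ⟨es, -, -, t4, -⟩ := tq h.toIK
  have tt : x * v 1 * x⁻¹ * (x * v 1 * x⁻¹) = 1 := by rw [← cjmul, h.vv, mul_one, mul_inv_cancel]
  have tQ : x * v 1 * x⁻¹ ∈ QQ := by
    obtain ⟨a, ha, q⟩ := h.dec m
    have o := (ugk 18 (by decide)).1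
    rw [q, e] at tt ⊢
    rw [h.elm o o, show mm _ _ = I5 by decide +kernel, h.K1, mul_one, h.v1 (x10 ha (Lv_lt _ _))] at tt
    exact el_PS ((by decide +kernel : ∀ a < 1024, a ^^^ Lv (ug 18) a = 0 → sb a 223) a ha tt) o (by decide +kernel)
  by_contra nA
  have es' := es.J x
  have sQ := h.le.symm tQ
  have z : ∀ y ∈ zpowers (v 1), y ∈ zpowers (x * v 1 * x⁻¹) → y = 1 := fun y p q => (es.mem_zp.1 p).elim id fun p => (es'.mem_zp.1 q).elim id
    fun q => absurd (q ▸ p ▸ h.vm 1) nA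
  have c1 := cbd (X := cj x QQ) (g := v 1) fun y hy => es'.comm_mem hy sQ
  have c2 := es.card_le_of_not (es.not_hasEA (m := 6) h.cQ) (A := cj x QQ ⊓ HH ⊓ QQ) inf_le_right
    (abelem2_iff.2 fun y hy => z _ (es.sq_mem hy.2) (es'.sq_mem hy.1.1))
  rw [card_cj, es'.card_zp, h.cQ] at c1
  obtain ⟨y, hy, l⟩ := (h.syl.of_le h.TC le_top).scj_le (K := cj x QQ ⊓ HH) inf_le_right (es'.pg.infl _)
  have yQ := h.le.norm hy
  obtain ⟨u, hu, q⟩ := t4 _ l (fun u hu => by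
    obtain ⟨u, k, rfl⟩ := mem_cj'.1 hu
    exact cjmul y u u ▸ conj_mem_of_norm yQ (zpowers_le.2 tQ (es'.sq_mem k.1))) (by
    rw [← cj_of_mem_norm yQ, ← cj_inf, card_cj, card_cj, cj_of_mem_norm yQ]; omega)
  have t' := conj_mem_of_norm yQ tQ
  have c : u ∈ C[y * (x * v 1 * x⁻¹) * y⁻¹] := by
    obtain ⟨u, k, rfl⟩ := mem_cj'.1 hu
    exact cj_cent1 y _ ▸ conj_mem_cj.2 (es'.le_cent k.1)
  have c' := (mem_cm1.1 ((mul_mem_cancel_left (cent_cm (HZ (h.TC (l hu))) c)).1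
    (mem_cm1.2 ⟨HZ (es.le_cent q), es.comm_mem q t'⟩))).2
  have n := h.PN t'
  obtain ⟨a, g, ha, o, p, r⟩ := (h.mem_PS gdk.1.2.2.2).1 t'
  obtain ⟨j, hj, rfl⟩ := ex_ug o (p.mono (by decide +kernel))
  have r' : ρ _ = ug j := r ▸ h.rel o a
  have k := (h.eqv _ (mul_mem (h.kn (ee 0 1)) n) _ (mul_mem n (h.kn (ee 0 1)))).2 (by
    rw [_root_.mul_inv_rev, ← mul_assoc]; exact zpowers_le.2 (h.vm 1) c')
  rw [h.mul _ (h.kn _) _ n, h.mul _ n _ (h.kn _), r', h.kr _ (by decide +kernel)] at k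
  rw [cjcj] at n r'
  have := h.dsc n0 n1 j hj (.inl ((by decide +kernel : ∀ j < 1024, inP mF (ug j) → mm (ee 0 1) (ug j) = mm (ug j) (ee 0 1) → sb j 145)
    j hj p k)) _ n r'
  rw [← cjcj] at this
  exact nA (by simpa [mul_assoc] using conj_mem_of_norm' (HA hy) this)
end C1
theorem f5 (tq : TQ.{u}) : F5.{u} := by
  intro G _ _ _ A ρ v K h n0 n1
  have n0 := n0.trans h.PN
  have n1 := n1.trans h.PN
  have AN : N(A) ≠ ⊤ := fun e => (IsSimpleGroup.eq_bot_or_eq_top_of_normal A (normalizer_eq_top_iff.1 e)).elim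
    (fun q => h.s1 (mem_bot.1 (q ▸ h.vm 1))) fun q => absurd ((h.mA (a := 0) (i := 1) (by decide) (by decide)).1 (q ▸ mem_top _)) (by decide)
  obtain ⟨S, hS⟩ := h.syl.exists_sylow_top
  rcases Agent.S2901.result (fun c => AN (top_le_iff.1 fun g _ => cent_le_norm _ (mem_cent.2 fun a _ => c.is_comm.comm a g))) N(A) AN (v 1)
    (h.vN 1) ⟨orderOf_inv2 h.s1 (h.vv 1), S, hS.ge (h.AP (h.vm 1)), fun x hx => mem_cent1.1 (h.TC (hS.le hx))⟩ (h.HN n0 n1 tq) (fun g hg => by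
      obtain ⟨y, hy, l⟩ := h.sylT.scj_le (zpowers_le.2 hg) (pg_zpowers (by rw [← cjmul, h.vv, mul_one, mul_inv_cancel]))
      have t := l (conj_mem_cj.2 (mem_zpowers _))
      obtain ⟨a, ha, i, hi, e⟩ := h.exT t
      rw [cjcj] at t e
      have := h.dsc n0 n1 i hi (.inr fun x => h.q18 n0 n1 tq) _ (h.PN t) (e ▸ h.rel (ugk i hi).1 a)
      rw [← cjcj] at this
      obtain ⟨n, hn, q⟩ := fus1 h.syl h.AP (ab_sq h.sq) (fun g _ => h.wc A (.inl rfl) g) (mem_top g) (h.vm 1)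
        (by simpa [mul_assoc] using conj_mem_of_norm' hy this)
      exact ⟨n, hn.2, q⟩) with ⟨-, T, hT⟩ | ⟨n, hn, -, ⟨f⟩⟩
  · have s := syl_sylow_top T
    have l : (T : Subgroup G) ≤ N(A) := hT ▸ le_normalizer
    have c := s.card_eq h.syl
    rcases h.sim (s.le_of_norm le_top h.pA (le_normalizer.trans hT.le)) ⟨l, hT.le⟩ with e | e <;> rw [e, h.cT] at c
    exacts [absurd (h.cA.symm.trans c) (by decide), absurd (h.card.symm.trans c) (by decide)]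
  · haveI : Nontrivial (Fin (n - 1)) := Fin.nontrivial_iff_two_le.2 (by omega)
    have := two_mul_nat_card_alternatingGroup (α := Fin (n - 1))
    rw [← Nat.card_congr f.toEquiv, h.card, Nat.card_perm, Nat.card_fin] at this
    rcases le_or_gt (n - 1) 13 with h | h <;> exact absurd (Nat.factorial_le h) (by rw [← this]; decide)
end H10.RG
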